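import Mathlib
import Cfsg.Agent.Lib.Helper61.QB.DefsG
import Cfsg.Agent.Lib.Helper2.PGroupFrattini
import Cfsg.Agent.S4207

set_option autoImplicit false
set_option linter.unusedSectionVars false

namespace Cfsg.Agent.Lib.Helper69.QB

open Cfsg.Agent.Lib.Helper61.QB
open scoped commutatorElement

universe u

variable {G : Type u} [Group G] [Finite G] {q : ℕ} [Fact q.Prime]

/-- a normal subgroup of index prime to `q` and a subgroup of `q`-power index generate `G` -/
theorem G1c_exists_mul (R : Subgroup G) [R.Normal] (hi : R.index.Coprime q) (C : Subgroup G)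
    {a : ℕ} (hC : C.index ∣ q ^ a) (g : G) : ∃ ρ ∈ R, ∃ c ∈ C, g = ρ * c := by
  have h1 : (R ⊔ C).index ∣ R.index := Subgroup.index_dvd_of_le le_sup_left
  have h2 : (R ⊔ C).index ∣ q ^ a := (Subgroup.index_dvd_of_le le_sup_right).trans hC
  have h3 : (R ⊔ C).index = 1 :=
    Nat.Coprime.eq_one_of_dvd ((hi.pow_right a).coprime_dvd_left h1) h2
  have h4 : R ⊔ C = ⊤ := Subgroup.index_eq_one.mp h3
  have hg : g ∈ ((R ⊔ C : Subgroup G) : Set G) := by rw [h4]; trivial
  rw [Subgroup.normal_mul] at hg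
  obtain ⟨ρ, hρ, c, hc, rfl⟩ := hg
  exact ⟨ρ, hρ, c, hc, rfl⟩

/-- [G1c] -/
theorem central_of_normal_sylow (R : Subgroup G) [hRn : R.Normal] (hR : IsPGroup q R)
    (hi : R.index.Coprime q)
    (hx : ∀ x ∈ R, (∃ w ∈ R, x * w ≠ w * x) → ∃ a : ℕ, idx x = q ^ a)
    (hna : ∃ x ∈ R, ∃ w ∈ R, x * w ≠ w * x) :
    ∀ y ∈ R, (∀ w ∈ R, y * w = w * y) → ∀ g : G, g * y = y * g := by
  have hq : q.Prime := Fact.out
  let φ : G →* MulAut R := MulAut.conjNormal
  have hφ : ∀ (g : G) (x : R), ((φ g x : R) : G) = g * x * g⁻¹ := fun g x =>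
    MulAut.conjNormal_apply g x
  have hΦn : (frattini R).Normal := inferInstance
  have hcomm : commutator R ≤ frattini R := Cfsg.Agent.Lib.Helper2.commutator_le_frattini hR
  -- noncentral elements
  have hA1 : ∀ (g : G) (x : R), (∃ w ∈ R, (x : G) * w ≠ w * x) → φ g x * x⁻¹ ∈ frattini R := by
    intro g x hxn
    obtain ⟨a, ha⟩ := hx x x.2 hxn
    obtain ⟨ρ, hρ, c, hc, rfl⟩ := G1c_exists_mul R hi (Subgroup.centralizer {(x : G)})
      (a := a) (by rw [← ha]) g
    have hcx : c * x = x * c := by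
      have := (Subgroup.mem_centralizer_iff.mp hc) x (Set.mem_singleton _)
      exact this.symm
    have h1 : φ (ρ * c) x * x⁻¹ = ⁅(⟨ρ, hρ⟩ : R), x⁆ := by
      apply Subtype.ext
      rw [commutatorElement_def]
      simp only [Subgroup.coe_mul, Subgroup.coe_inv, hφ]
      have : c * (x : G) * c⁻¹ = x := by rw [hcx]; group
      calc ρ * c * (x : G) * (ρ * c)⁻¹ * (x : G)⁻¹ = ρ * (c * (x : G) * c⁻¹) * ρ⁻¹ * (x : G)⁻¹ := by
            group
        _ = ρ * (x : G) * ρ⁻¹ * (x : G)⁻¹ := by rw [this]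
    rw [h1]
    apply hcomm
    exact Subgroup.commutator_mem_commutator (Subgroup.mem_top _) (Subgroup.mem_top _)
  have hA : ∀ α ∈ φ.range, ∀ x : R, α x * x⁻¹ ∈ frattini R := by
    rintro _ ⟨g, rfl⟩ x
    by_cases hxn : ∃ w ∈ R, (x : G) * w ≠ w * x
    · exact hA1 g x hxn
    · push Not at hxn
      obtain ⟨x0, hx0, w, hw, hne⟩ := hna
      have h0 := hA1 g ⟨x0, hx0⟩ ⟨w, hw, hne⟩
      have h1 := hA1 g (⟨x0, hx0⟩ * x) ⟨w, hw, by
        intro heq
        apply hne
        have h2 := hxn w hw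
        simp only [Subgroup.coe_mul] at heq
        have h3 : x0 * w * (x : G) = w * x0 * x := by
          rw [mul_assoc, ← h2, ← mul_assoc, heq, mul_assoc]
        exact mul_right_cancel h3⟩
      set u : R := ⟨x0, hx0⟩ with hu
      have e1 : φ g x * x⁻¹ =
          ((φ g u)⁻¹ * (φ g (u * x) * (u * x)⁻¹) * (φ g u)⁻¹⁻¹) *
            (u⁻¹ * (φ g u * u⁻¹) * u⁻¹⁻¹)⁻¹ := by
        rw [map_mul]
        group
      rw [e1]
      exact (frattini R).mul_mem (hΦn.conj_mem _ h1 _) ((frattini R).inv_mem (hΦn.conj_mem _ h0 _))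
  obtain ⟨n, hn⟩ := IsPGroup.iff_card.mp hR
  have hfi : (frattini R).index ∣ q ^ n := by rw [← hn]; exact Subgroup.index_dvd_card _
  obtain ⟨r, _, hr⟩ := (Nat.dvd_prime_pow hq).mp hfi
  have hcard := Cfsg.Agent.S4207.result hn hr φ.range hA
  intro y hy hyc g
  obtain ⟨ρ, hρ, k, hk, rfl⟩ := G1c_exists_mul R hi φ.ker
    (a := r * (n - r)) (by rw [Subgroup.index_ker]; exact hcard) g
  have hk1 : k * y * k⁻¹ = y := by
    have h1 : φ k = 1 := hk
    have h2 := hφ k ⟨y, hy⟩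
    rw [h1] at h2
    exact h2.symm
  have hk2 : k * y = y * k := by
    have := congrArg (fun z => z * k) hk1
    simpa using this
  rw [mul_assoc, hk2, ← mul_assoc, ← hyc ρ hρ, mul_assoc]

end Cfsg.Agent.Lib.Helper69.QB
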