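import Mathlib
import Cfsg.Prelude.Def_Solvable
import Cfsg.Agent.Lib.Helper61.QB.DefsG
import Cfsg.Agent.Lib.Lead.Cores
import Cfsg.Agent.Lib.Helper97.KazarinCore

set_option autoImplicit false
set_option linter.unusedSectionVars false

namespace Cfsg.Agent.Lib.Helper69.QB

open Cfsg.Agent.Lib.Helper61.QB

universe u

variable {G : Type u} [Group G] [Finite G] {q : ℕ} [Fact q.Prime]

theorem isQ_of_mem_pGroup {H : Subgroup G} (hH : IsPGroup q H) {x : G} (hx : x ∈ H) : IsQ q x := by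
  obtain ⟨k, hk⟩ := hH ⟨x, hx⟩
  have h1 : x ^ q ^ k = 1 := by
    have := congrArg Subtype.val hk
    simpa using this
  obtain ⟨j, _, hj⟩ := (Nat.dvd_prime_pow (Fact.out : q.Prime)).mp (orderOf_dvd_of_pow_eq_one h1)
  exact ⟨j, hj⟩

theorem sylow_index_coprime (Q : Sylow q G) : (Q : Subgroup G).index.Coprime q :=
  ((Nat.Prime.coprime_iff_not_dvd (Fact.out : q.Prime)).mpr Q.not_dvd_index).symm

/-- [QUOT] -/
theorem quot_props {p : ℕ} (hp : p.Prime) (hpq : p ≠ q)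
    (h : ∀ x : G, IsQ q x → ∃ a : ℕ, idx x = p ^ a) (Q : Sylow q G)
    (hab : IsMulCommutative (Q : Subgroup G))
    (hn : (Cfsg.pCore p G ⊔ (Q : Subgroup G)).Normal) [(Cfsg.pPrimeCore q G).Normal] :
    SolvHyp q p (G ⧸ Cfsg.pPrimeCore q G) := by
  have hq : q.Prime := Fact.out
  have : Fact p.Prime := ⟨hp⟩
  set mk := QuotientGroup.mk' (Cfsg.pPrimeCore q G) with hmk
  have hsurj : Function.Surjective mk := QuotientGroup.mk'_surjective _
  have hle : Cfsg.pCore p G ≤ Cfsg.pPrimeCore q G := by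
    apply Cfsg.Agent.Lib.Lead.le_pPrimeCore (Cfsg.Agent.Lib.Lead.pCore_normal' p G)
    obtain ⟨k, hk⟩ := IsPGroup.iff_card.mp (Cfsg.Agent.Lib.Lead.pCore_isPGroup p G)
    rw [hk]
    exact Nat.Coprime.pow_left k ((Nat.coprime_primes hp hq).mpr hpq)
  have hV : (Q : Subgroup G).map mk = (Cfsg.pCore p G ⊔ (Q : Subgroup G)).map mk := by
    rw [Subgroup.map_sup]
    have : (Cfsg.pCore p G).map mk = ⊥ := by
      rw [Subgroup.map_eq_bot_iff, hmk, QuotientGroup.ker_mk']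
      exact hle
    rw [this, bot_sup_eq]
  refine ⟨⟨(Q : Subgroup G).map mk, ?_, ?_, Q.2.map mk, ?_, ?_⟩, ?_⟩
  · rw [hV]
    exact Subgroup.Normal.map hn mk hsurj
  · rintro _ ⟨a, ha, rfl⟩ _ ⟨b, hb, rfl⟩
    have h1 : (⟨a, ha⟩ : (Q : Subgroup G)) * ⟨b, hb⟩ = ⟨b, hb⟩ * ⟨a, ha⟩ := hab.is_comm.comm _ _
    have h2 : a * b = b * a := congrArg Subtype.val h1
    rw [← map_mul, ← map_mul, h2]
  · exact Nat.Coprime.coprime_dvd_left (Subgroup.index_map_dvd _ hsurj) (sylow_index_coprime Q)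
  · rintro _ ⟨x, hx, rfl⟩
    obtain ⟨a, ha⟩ := h x (isQ_of_mem_pGroup Q.2 hx)
    have h1 : idx (mk x) ∣ p ^ a := by
      rw [← ha]
      exact Cfsg.Agent.Lib.Helper97.index_centralizer_map_dvd mk hsurj x
    obtain ⟨b, _, hb⟩ := (Nat.dvd_prime_pow hp).mp h1
    exact ⟨b, hb⟩
  · intro N hN hc
    have h1 := Cfsg.Agent.Lib.Lead.le_pPrimeCore hN hc
    have h2 := Cfsg.Agent.Lib.Lead.pPrimeCore_quotient_pPrimeCore q G
    rw [eq_bot_iff]
    intro x hx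
    have h3 := h1 hx
    rw [← h2]
    exact h3

end Cfsg.Agent.Lib.Helper69.QB
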