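import Mathlib
import Cfsg.Prelude.Def_Solvable
import Cfsg.Agent.Lib.Helper61.QB.DefsG
import Cfsg.Agent.Lib.Lead.Cores
import Cfsg.Agent.Lib.Helper54.QB.G1a
import Cfsg.Agent.Lib.Helper54.QB.G1b
import Cfsg.Agent.Lib.Helper69.QB.G1c
import Cfsg.Agent.Lib.Helper69.QB.QUOT

set_option autoImplicit false
set_option linter.unusedSectionVars false

namespace Cfsg.Agent.Lib.Helper69.QB

open Cfsg.Agent.Lib.Helper61.QB Cfsg.Agent.Lib.Helper54.QB

universe u

variable {G : Type u} [Group G] [Finite G] {q : ℕ} [Fact q.Prime]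

theorem G1_coprime_of_le (Q0 : Sylow q G) (x : G)
    (h : (Q0 : Subgroup G) ≤ Subgroup.centralizer {x}) : (idx x).Coprime q :=
  Nat.Coprime.coprime_dvd_left (Subgroup.index_dvd_of_le h) (sylow_index_coprime Q0)

/-- [G1] -/
theorem dichotomy (hB : Baer q G) :
    (∀ x : G, IsQ q x → ∃ a : ℕ, idx x = q ^ a) ∨ (∀ x : G, IsQ q x → (idx x).Coprime q) := by
  have hq : q.Prime := Fact.out
  obtain ⟨Q0⟩ : Nonempty (Sylow q G) := inferInstance
  set R := Cfsg.pCore q G with hR
  have hRn : R.Normal := Cfsg.Agent.Lib.Lead.pCore_normal' q G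
  have hRp : IsPGroup q R := Cfsg.Agent.Lib.Lead.pCore_isPGroup q G
  have hcop : ∀ {r a : ℕ}, r.Prime → r ≠ q → (r ^ a).Coprime q := fun hr hrq =>
    Nat.Coprime.pow_left _ ((Nat.coprime_primes hr hq).mpr hrq)
  have hunion : ((Q0 : Subgroup G) : Set G) ⊆ (R : Set G) ∪ (Subgroup.centralizer (R : Set G)) := by
    intro g hg
    obtain ⟨r, a, hr, ha⟩ := hB g (isQ_of_mem_pGroup Q0.2 hg)
    by_cases hrq : r = q
    · left
      subst hrq
      exact mem_pCore_of_index_pow g (isQ_of_mem_pGroup Q0.2 hg) ha
    · right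
      have h1 := commute_pCore_of_coprime (q := q) g (by rw [ha]; exact hcop hr hrq)
      show g ∈ Subgroup.centralizer (R : Set G)
      rw [Subgroup.mem_centralizer_iff]
      intro y hy
      exact (h1 y hy).symm
  rcases SubgroupClass.subset_union.mp hunion with hQR | hQC
  · -- `Q0 = R` is a normal Sylow subgroup
    have hRQ : R = Q0 := le_antisymm (Cfsg.Agent.Lib.Lead.pCore_le_sylow Q0) hQR
    have hi : R.index.Coprime q := by rw [hRQ]; exact sylow_index_coprime Q0
    have hmem : ∀ x : G, IsQ q x → x ∈ R := by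
      intro x ⟨k, hk⟩
      have hz : IsPGroup q (Subgroup.zpowers x) := by
        apply IsPGroup.of_card (n := k)
        rw [Nat.card_zpowers, hk]
      obtain ⟨P, hP⟩ := hz.exists_le_sylow
      have h1 : R ≤ P := Cfsg.Agent.Lib.Lead.pCore_le_sylow P
      have h2 : Nat.card (P : Subgroup G) = Nat.card R := by
        rw [hRQ, Sylow.card_eq_multiplicity, Sylow.card_eq_multiplicity]
      have h3 : R = P := Subgroup.eq_of_le_of_card_ge h1 h2.le
      rw [h3]
      exact hP (Subgroup.mem_zpowers x)
    by_cases hna : ∃ x ∈ R, ∃ w ∈ R, x * w ≠ w * x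
    · left
      have hx : ∀ x ∈ R, (∃ w ∈ R, x * w ≠ w * x) → ∃ a : ℕ, idx x = q ^ a := by
        intro x hxR ⟨w, hw, hne⟩
        obtain ⟨r, a, hr, ha⟩ := hB x (isQ_of_mem_pGroup hRp hxR)
        by_cases hrq : r = q
        · exact ⟨a, by rw [ha, hrq]⟩
        · exfalso
          exact hne (commute_pCore_of_coprime (q := q) x (by rw [ha]; exact hcop hr hrq) w hw)
      intro x hxQ
      have hxR := hmem x hxQ
      by_cases hxn : ∃ w ∈ R, x * w ≠ w * x
      · exact hx x hxR hxn
      · push Not at hxn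
        have hcen := central_of_normal_sylow R hRp hi hx hna x hxR hxn
        refine ⟨0, ?_⟩
        have : Subgroup.centralizer {x} = ⊤ := by
          rw [eq_top_iff]
          intro g _
          rw [Subgroup.mem_centralizer_iff]
          intro y hy
          rw [Set.mem_singleton_iff.mp hy]
          exact (hcen g).symm
        rw [pow_zero]
        show (Subgroup.centralizer {x}).index = 1
        rw [this, Subgroup.index_top]
    · right
      push Not at hna
      intro x hxQ
      have hxR := hmem x hxQ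
      apply G1_coprime_of_le Q0
      rw [← hRQ]
      intro w hw
      rw [Subgroup.mem_centralizer_iff]
      intro y hy
      rw [Set.mem_singleton_iff.mp hy]
      exact hna x hxR w hw
  · right
    intro x hxQ
    obtain ⟨r, a, hr, ha⟩ := hB x hxQ
    by_cases hrq : r = q
    · subst hrq
      have hxR : x ∈ R := mem_pCore_of_index_pow x hxQ ha
      apply G1_coprime_of_le Q0
      refine hQC.trans (Subgroup.centralizer_le ?_)
      intro y hy
      rw [Set.mem_singleton_iff.mp hy]
      exact hxR
    · rw [ha]; exact hcop hr hrq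

end Cfsg.Agent.Lib.Helper69.QB
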