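import Mathlib
import Cfsg.Agent.Lib.Helper61.QB.Defs
import Cfsg.Agent.Lib.Helper61.QB.DefsG
import Cfsg.Agent.Lib.Helper8.QB.S3b

set_option autoImplicit false
set_option linter.unusedSectionVars false

namespace Cfsg.Agent.Lib.Helper69.QB

open Cfsg.Agent.Lib.Helper61.QB

universe u

variable {G : Type u} [Group G] [Finite G] {q : ℕ} [Fact q.Prime]

/-- [S4] in hypothesis form: `hX` = Lemma X, `hS2` = piece S2, `hS3a` = piece S3a. -/
theorem solvable_of_solvHyp_of {p : ℕ} [Fact p.Prime]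
    (hX : ∀ (M : Type u) [AddCommGroup M] [Module (ZMod q) M] [Finite M]
      (A : Subgroup (M ≃ₗ[ZMod q] M)), Good q p A → Group.IsSolvable A)
    (hS2 : ∀ (V : Subgroup G) [V.Normal], (∀ x ∈ V, ∀ y ∈ V, x * y = y * x) → IsPGroup q V →
      V.index.Coprime q → (∀ N : Subgroup G, N.Normal → (Nat.card N).Coprime q → N = ⊥) →
      ∀ g : G, (∀ v ∈ V, v ^ q = 1 → g * v = v * g) → g ∈ V)
    (hS3a : ∀ (Ω : Subgroup G) [Ω.Normal], (∀ x ∈ Ω, ∀ y ∈ Ω, x * y = y * x) →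
      (∀ x ∈ Ω, x ^ q = 1) →
      ∃ (M : Type u) (_ : AddCommGroup M) (_ : Module (ZMod q) M) (_ : Finite M) (e : Ω ≃ M)
        (φ : G →* (M ≃ₗ[ZMod q] M)),
        ∀ (g : G) (x y : Ω), (y : G) = g * x * g⁻¹ → φ g (e x) = e y)
    (h : SolvHyp q p G) : Group.IsSolvable G := by
  obtain ⟨⟨V, hVn, hab, hVp, hi, hidx⟩, hcf⟩ := h
  let Ω : Subgroup G :=
    { carrier := {a | a ∈ V ∧ a ^ q = 1}
      one_mem' := ⟨V.one_mem, one_pow _⟩
      mul_mem' := by
        rintro a b ⟨ha, ha'⟩ ⟨hb, hb'⟩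
        refine ⟨V.mul_mem ha hb, ?_⟩
        have : Commute a b := hab a ha b hb
        rw [this.mul_pow, ha', hb', one_mul]
      inv_mem' := by
        rintro a ⟨ha, ha'⟩
        exact ⟨V.inv_mem ha, by rw [inv_pow, ha', inv_one]⟩ }
  have hΩn : Ω.Normal := by
    constructor
    rintro a ⟨ha, ha'⟩ g
    exact ⟨hVn.conj_mem a ha g, by rw [conj_pow, ha']; simp⟩
  obtain ⟨M, i1, i2, i3, e, φ, hφ⟩ := hS3a Ω (fun x hx y hy => hab x hx.1 y hy.1)
    (fun x hx => hx.2)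
  have hVker : V ≤ φ.ker := by
    intro g hg
    rw [MonoidHom.mem_ker]
    apply LinearEquiv.ext
    intro m
    obtain ⟨x, rfl⟩ := e.surjective m
    have h1 : (x : G) = g * x * g⁻¹ := by
      rw [hab g hg x x.2.1]; group
    rw [hφ g x x h1]
    rfl
  have hc : (Nat.card φ.range).Coprime q := by
    rw [← Subgroup.index_ker]
    exact Nat.Coprime.coprime_dvd_left (Subgroup.index_dvd_of_le hVker) hi
  have hgood : Good q p φ.range :=
    Cfsg.Agent.Lib.Helper8.QB.good_range_of_linearization Ω e φ hφ hc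
      (fun x hx => hidx x hx.1)
  have hsr : Group.IsSolvable φ.range := hX M φ.range hgood
  have hkerV : φ.ker ≤ V := by
    intro g hg
    apply hS2 V hab hVp hi hcf g
    intro v hv hvq
    have hvΩ : v ∈ Ω := ⟨hv, hvq⟩
    have hyΩ : g * v * g⁻¹ ∈ Ω := hΩn.conj_mem v hvΩ g
    have h1 := hφ g ⟨v, hvΩ⟩ ⟨g * v * g⁻¹, hyΩ⟩ rfl
    have h2 : φ g = 1 := hg
    rw [h2] at h1
    have h3 : (⟨v, hvΩ⟩ : Ω) = ⟨g * v * g⁻¹, hyΩ⟩ := e.injective h1
    have h4 : v = g * v * g⁻¹ := congrArg Subtype.val h3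
    have h5 := congrArg (fun z => z * g) h4
    simpa using h5.symm
  have hsV : Group.IsSolvable V :=
    Group.isSolvable_of_comm (fun a b => Subtype.ext (hab a a.2 b b.2))
  refine Group.isSolvable_of_ker_le_range V.subtype φ.rangeRestrict ?_
  rw [MonoidHom.ker_rangeRestrict, Subgroup.range_subtype]
  exact hkerV

end Cfsg.Agent.Lib.Helper69.QB
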